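import Mathlib

/-!
# Dimensions of modules of groups of extraspecial type (helper149, S4816)

`extra_le`: `R` finite with commutators in `{1, z}` and centre `{1, z}`, `ρ z = -1`: `|R| ≤ 2 (dim U)²`.
`extra_card`: module form: `R ≤ L`, `z ∈ R` not trivial on the `F_p`-module `V`: `p ^ D ≤ |V|` if `2 (D - 1)² < |R|`.
-/

set_option autoImplicit false

namespace Cfsg.Agent.H149.RI

section Rep

variable {R : Type*} [Group R] [Finite R] {K : Type*} [Field K] {U : Type*} [AddCommGroup U] [Module K U]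
  [FiniteDimensional K U] [Nontrivial U]

theorem extra_le (ρ : R →* (U →ₗ[K] U)) (z : R) (hz : ρ z = -1) (hK : (Nat.card R : K) ≠ 0) (h2 : (2 : K) ≠ 0)
    (hzz : z * z = 1)
    (hcomm : ∀ x y : R, x * y * x⁻¹ * y⁻¹ = 1 ∨ x * y * x⁻¹ * y⁻¹ = z)
    (hcen : ∀ x : R, (∀ y, x * y = y * x) → x = 1 ∨ x = z) :
    Nat.card R ≤ 2 * Module.finrank K U ^ 2 := by
  classical
  have := Fintype.ofFinite R
  have hzc : ∀ x : R, z * x = x * z := by
    intro x
    rcases hcomm z x with h | h
    · rw [mul_inv_eq_one, mul_inv_eq_iff_eq_mul] at h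
      exact h
    · have h1 : x * z⁻¹ * x⁻¹ = 1 := by
        have h3 : z * (x * z⁻¹ * x⁻¹) = z * 1 := by
          rw [mul_one]
          simpa only [mul_assoc] using h
        exact mul_left_cancel h3
      have h4 : z⁻¹ = 1 := by
        have := mul_inv_eq_one.1 h1
        exact mul_left_cancel (a := x) (by rw [this, mul_one])
      rw [inv_eq_one.1 h4, one_mul, mul_one]
  -- the average of a non-central element vanishes
  have havg : ∀ x : R, ¬ (x = 1 ∨ x = z) → ∑ s : R, ρ (s * x * s⁻¹) = 0 := by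
    intro x hx
    have h1 : ∃ y, ¬ x * y = y * x := by
      by_contra h
      push Not at h
      exact hx (hcen x h)
    obtain ⟨y, hy⟩ := h1
    have hyx : y * x * y⁻¹ = z * x := by
      rcases hcomm y x with h | h
      · exfalso
        apply hy
        rw [mul_inv_eq_one, mul_inv_eq_iff_eq_mul] at h
        exact h.symm
      · exact mul_inv_eq_iff_eq_mul.1 h
    have h3 : ∑ s : R, ρ (s * x * s⁻¹) = ∑ s : R, ρ ((s * y) * x * (s * y)⁻¹) :=
      (Fintype.sum_equiv (Equiv.mulRight y) (fun s => ρ ((s * y) * x * (s * y)⁻¹)) (fun s => ρ (s * x * s⁻¹))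
        (fun s => rfl)).symm
    have h4 : ∀ s : R, ρ ((s * y) * x * (s * y)⁻¹) = - ρ (s * x * s⁻¹) := by
      intro s
      have e : (s * y) * x * (s * y)⁻¹ = z * (s * x * s⁻¹) := by
        calc (s * y) * x * (s * y)⁻¹ = s * (y * x * y⁻¹) * s⁻¹ := by group
          _ = s * (z * x) * s⁻¹ := by rw [hyx]
          _ = (s * z) * x * s⁻¹ := by group
          _ = (z * s) * x * s⁻¹ := by rw [hzc]
          _ = z * (s * x * s⁻¹) := by group
      rw [e, map_mul, hz, neg_one_mul]
    have h5 : ∑ s : R, ρ (s * x * s⁻¹) = - ∑ s : R, ρ (s * x * s⁻¹) := by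
      conv_lhs => rw [h3]
      rw [Finset.sum_congr rfl (fun s _ => h4 s), Finset.sum_neg_distrib]
    have h6 : (2 : K) • ∑ s : R, ρ (s * x * s⁻¹) = 0 := by
      rw [two_smul]
      nth_rewrite 1 [h5]
      exact neg_add_cancel _
    exact (smul_eq_zero.1 h6).resolve_left h2
  -- linear independence of a transversal
  let Z : Subgroup R := Subgroup.zpowers z
  have hZ : ∀ x, x ∈ Z ↔ x = 1 ∨ x = z := by
    intro x
    constructor
    · intro hx
      exact hcen x (fun y => by
        obtain ⟨n, rfl⟩ := Subgroup.mem_zpowers_iff.1 hx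
        exact ((show Commute z y from hzc y).zpow_left n))
    · rintro (rfl | rfl)
      · exact Z.one_mem
      · exact Subgroup.mem_zpowers _
  have hli : LinearIndependent K (fun q : R ⧸ Z => ρ q.out) := by
    rw [Fintype.linearIndependent_iff]
    intro g hg q0
    have h1 : ∑ s : R, ρ s * ((∑ q : R ⧸ Z, g q • ρ q.out) * ρ (q0.out)⁻¹) * ρ s⁻¹ = 0 := by
      rw [hg]
      simp
    have h2' : ∀ s : R, ρ s * ((∑ q : R ⧸ Z, g q • ρ q.out) * ρ (q0.out)⁻¹) * ρ s⁻¹ =
        ∑ q : R ⧸ Z, g q • ρ (s * (q.out * (q0.out)⁻¹) * s⁻¹) := by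
      intro s
      rw [Finset.sum_mul, Finset.mul_sum, Finset.sum_mul]
      refine Finset.sum_congr rfl (fun q _ => ?_)
      rw [smul_mul_assoc, mul_smul_comm, smul_mul_assoc, ← map_mul, ← map_mul, ← map_mul]
    rw [Finset.sum_congr rfl (fun s _ => h2' s), Finset.sum_comm] at h1
    rw [Finset.sum_eq_single q0] at h1
    · have h3 : ∑ s : R, g q0 • ρ (s * (q0.out * (q0.out)⁻¹) * s⁻¹) = ((Nat.card R : K) * g q0) • (1 : U →ₗ[K] U) := by
        have h4 : ∀ s : R, g q0 • ρ (s * (q0.out * (q0.out)⁻¹) * s⁻¹) = g q0 • (1 : U →ₗ[K] U) := by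
          intro s
          rw [mul_inv_cancel, mul_one, mul_inv_cancel, map_one]
        rw [Finset.sum_congr rfl (fun s _ => h4 s), Finset.sum_const, Finset.card_univ, ← Nat.card_eq_fintype_card,
          ← Nat.cast_smul_eq_nsmul K, smul_smul]
      rw [h3] at h1
      have h5 : (1 : U →ₗ[K] U) ≠ 0 := by
        intro h
        obtain ⟨u, hu⟩ := exists_ne (0 : U)
        apply hu
        have := LinearMap.congr_fun h u
        simpa using this
      rcases smul_eq_zero.1 h1 with h6 | h6
      · exact (mul_eq_zero.1 h6).resolve_left hK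
      · exact absurd h6 h5
    · intro q _ hq
      rw [← Finset.smul_sum, havg, smul_zero]
      rintro h
      apply hq
      have h6 : q.out * (q0.out)⁻¹ ∈ Z := (hZ _).2 h
      have h7 : (q0.out)⁻¹ * q.out ∈ Z := by
        rcases (hZ _).1 h6 with h8 | h8
        · rw [mul_inv_eq_one.1 h8, inv_mul_cancel]
          exact Z.one_mem
        · rw [mul_inv_eq_iff_eq_mul.1 h8, hzc, ← mul_assoc, inv_mul_cancel, one_mul]
          exact Subgroup.mem_zpowers _
      have h9 := (QuotientGroup.eq (s := Z)).2 h7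
      rw [QuotientGroup.out_eq', QuotientGroup.out_eq'] at h9
      exact h9.symm
    · intro h
      exact absurd (Finset.mem_univ _) h
  have h1 := hli.fintype_card_le_finrank
  rw [Module.finrank_linearMap, ← Nat.card_eq_fintype_card] at h1
  have h3 : Nat.card Z ≤ 2 := by
    have h4 : (Z : Set R) ⊆ {1, z} := by
      intro x hx
      rcases (hZ x).1 hx with h | h
      · exact Or.inl h
      · exact Or.inr h
    calc Nat.card Z = (Z : Set R).ncard := rfl
      _ ≤ ({1, z} : Set R).ncard := Set.ncard_le_ncard h4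
      _ ≤ ({z} : Set R).ncard + 1 := Set.ncard_insert_le _ _
      _ = 2 := by rw [Set.ncard_singleton]
  calc Nat.card R = Nat.card (R ⧸ Z) * Nat.card Z := Subgroup.card_eq_card_quotient_mul_card_subgroup Z
    _ ≤ (Module.finrank K U * Module.finrank K U) * 2 := Nat.mul_le_mul h1 h3
    _ = 2 * Module.finrank K U ^ 2 := by ring

end Rep

section Mod

variable {L : Type*} [Group L] {V : Type*} [AddCommGroup V] [Finite V] [DistribMulAction L V]

/-- the linear action over `F_p` -/
def toLin (p : ℕ) (L V : Type*) [Group L] [AddCommGroup V] [Module (ZMod p) V] [DistribMulAction L V] :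
    L →* Module.End (ZMod p) V where
  toFun h := AddMonoidHom.toZModLinearMap p (DistribSMul.toAddMonoidHom V h)
  map_one' := by
    apply LinearMap.ext
    intro v
    exact one_smul L v
  map_mul' a b := by
    apply LinearMap.ext
    intro v
    exact mul_smul a b v

theorem toLin_apply {p : ℕ} [Module (ZMod p) V] (h : L) (v : V) : toLin p L V h v = h • v := rfl

theorem extra_card_aux {p : ℕ} [hp : Fact p.Prime] [Module (ZMod p) V] (hp2 : p ≠ 2) (R : Subgroup L) [Finite R]
    (z : R) (hzz : z * z = 1) (hcomm : ∀ x y : R, x * y * x⁻¹ * y⁻¹ = 1 ∨ x * y * x⁻¹ * y⁻¹ = z)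
    (hcen : ∀ x : R, (∀ y, x * y = y * x) → x = 1 ∨ x = z) (hR : ¬ p ∣ Nat.card R)
    (hz : ∃ v : V, (z : L) • v ≠ v) (D : ℕ) (hD : 2 * (D - 1) ^ 2 < Nat.card R) :
    p ^ D ≤ Nat.card V := by
  classical
  have hzc : ∀ x : R, z * x = x * z := by
    intro x
    rcases hcomm z x with h | h
    · rw [mul_inv_eq_one, mul_inv_eq_iff_eq_mul] at h
      exact h
    · have h1 : x * z⁻¹ * x⁻¹ = 1 := by
        have h3 : z * (x * z⁻¹ * x⁻¹) = z * 1 := by
          rw [mul_one]
          simpa only [mul_assoc] using h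
        exact mul_left_cancel h3
      have h4 : z⁻¹ = 1 := by
        have := mul_inv_eq_one.1 h1
        exact mul_left_cancel (a := x) (by rw [this, mul_one])
      rw [inv_eq_one.1 h4, one_mul, mul_one]
  let U : Submodule (ZMod p) V := LinearMap.ker (toLin p L V z + 1)
  have hU : ∀ v, v ∈ U ↔ (z : L) • v = -v := by
    intro v
    rw [LinearMap.mem_ker, LinearMap.add_apply, toLin_apply, Module.End.one_apply]
    exact add_eq_zero_iff_eq_neg
  have hstab : ∀ (r : R), ∀ v ∈ U, toLin p L V r v ∈ U := by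
    intro r v hv
    rw [hU] at hv ⊢
    rw [toLin_apply, ← mul_smul]
    have e : (z : L) * r = r * z := congrArg Subtype.val (hzc r)
    rw [e, mul_smul, hv, smul_neg]
  let ρ : R →* (U →ₗ[ZMod p] U) :=
    { toFun := fun r => (toLin p L V r).restrict (hstab r)
      map_one' := by
        ext v
        exact one_smul L (v : V)
      map_mul' := fun r s => by
        ext v
        exact mul_smul (r : L) s (v : V) }
  have hρ : ∀ (r : R) (v : U), ((ρ r v : U) : V) = (r : L) • (v : V) := fun r v => rfl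
  obtain ⟨v0, hv0⟩ := hz
  have hzz' : (z : L) * z = 1 := congrArg Subtype.val hzz
  have hnt : Nontrivial U := by
    refine ⟨⟨⟨(z : L) • v0 - v0, ?_⟩, 0, ?_⟩⟩
    · rw [hU, smul_sub, ← mul_smul, hzz', one_smul]
      abel
    · intro h
      exact hv0 (sub_eq_zero.1 (congrArg Subtype.val h))
  have hc : (Nat.card R : ZMod p) ≠ 0 := by
    rw [Ne, ZMod.natCast_eq_zero_iff]
    exact hR
  have h2 : (2 : ZMod p) ≠ 0 := by
    intro h
    have : ((2 : ℕ) : ZMod p) = 0 := by exact_mod_cast h
    rw [ZMod.natCast_eq_zero_iff] at this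
    exact hp2 ((Nat.prime_dvd_prime_iff_eq hp.out Nat.prime_two).1 this)
  have hle := extra_le ρ z (by
    ext v
    rw [hρ, LinearMap.neg_apply, Module.End.one_apply]
    exact (hU v).1 v.2) hc h2 hzz hcomm hcen
  have hf : D ≤ Module.finrank (ZMod p) U := by
    by_contra h
    push Not at h
    have h3 : Module.finrank (ZMod p) U ≤ D - 1 := by omega
    have h4 : 2 * Module.finrank (ZMod p) U ^ 2 ≤ 2 * (D - 1) ^ 2 :=
      Nat.mul_le_mul le_rfl (Nat.pow_le_pow_left h3 2)
    omega
  have hf2 : Module.finrank (ZMod p) U ≤ Module.finrank (ZMod p) V := U.finrank_le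
  rw [Module.natCard_eq_pow_finrank (K := ZMod p) (V := V), Nat.card_zmod]
  exact Nat.pow_le_pow_right hp.out.pos (hf.trans hf2)

/-- module form: `R` a subgroup of extraspecial type of `L` (commutators and centre in `{1, z}`), `z` not trivial on the
`F_p`-module `V`, `2 (D - 1)² < |R|`: then `p ^ D ≤ |V|`. -/
theorem extra_card {p : ℕ} (hp : p.Prime) (hV : ∀ v : V, p • v = 0) (hp2 : p ≠ 2) (R : Subgroup L) [Finite R]
    (z : R) (hzz : z * z = 1) (hcomm : ∀ x y : R, x * y * x⁻¹ * y⁻¹ = 1 ∨ x * y * x⁻¹ * y⁻¹ = z)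
    (hcen : ∀ x : R, (∀ y, x * y = y * x) → x = 1 ∨ x = z) (hR : ¬ p ∣ Nat.card R)
    (hz : ∃ v : V, (z : L) • v ≠ v) (D : ℕ) (hD : 2 * (D - 1) ^ 2 < Nat.card R) :
    p ^ D ≤ Nat.card V := by
  have : Fact p.Prime := ⟨hp⟩
  let _ : Module (ZMod p) V := AddCommGroup.zmodModule hV
  exact extra_card_aux hp2 R z hzz hcomm hcen hR hz D hD

end Mod

end Cfsg.Agent.H149.RI
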