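import Cfsg.Agent.H149.RI.Extra
import Cfsg.Agent.H88.RIM.T3
import Cfsg.Agent.H665.RIM.Defs
import Cfsg.Agent.Co2Type.Quad

/-!
# S4816, module side of the large groups: dimension bound + chain of conjugates (helper149)

`large_card`: a large extraspecial 2-subgroup `Q` of `G`, `z` not trivial on `V`: `p ^ D ≤ |V|` if `2 (D - 1)² < |Q|`.
`noPEx_of_dim`: `NoPEx p H` for simple `H` from a lower bound `p ^ D ≤ |V|` for the faithful modules and numbers.
-/

set_option autoImplicit false

namespace Cfsg.Agent.H149.RI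

open Cfsg Cfsg.Agent.Co2Type.Quad Cfsg.Agent.H88.RIM Cfsg.Agent.H665.RIM

universe u

theorem large_card {G : Type*} [Group G] {Q : Subgroup G} [Finite Q] {z : G} (h : Large Q z) {V : Type*}
    [AddCommGroup V] [Finite V] [DistribMulAction G V] {p : ℕ} (hp : p.Prime) (hV : ∀ v : V, p • v = 0) (hp2 : p ≠ 2)
    (hQ : ¬ p ∣ Nat.card Q) (hz : ∃ v : V, z • v ≠ v) (D : ℕ) (hD : 2 * (D - 1) ^ 2 < Nat.card Q) :
    p ^ D ≤ Nat.card V := by
  refine extra_card hp hV hp2 Q ⟨z, h.z_mem⟩ (Subtype.ext h.z_sq) ?_ ?_ hQ hz D hD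
  · intro x y
    rcases h.comm x x.2 y y.2 with h1 | h1
    · left
      apply Subtype.ext
      show (x : G) * y * (x : G)⁻¹ * (y : G)⁻¹ = 1
      rw [h1]
      group
    · right
      apply Subtype.ext
      show (x : G) * y * (x : G)⁻¹ * (y : G)⁻¹ = z
      have hx : z * (x : G)⁻¹ = (x : G)⁻¹ * z := (h.comm_z _ (Q.inv_mem x.2)).symm
      have hy : z * (y : G)⁻¹ = (y : G)⁻¹ * z := (h.comm_z _ (Q.inv_mem y.2)).symm
      rw [h1]
      calc (y : G) * x * z * (x : G)⁻¹ * (y : G)⁻¹ = y * x * (z * (x : G)⁻¹) * (y : G)⁻¹ := by group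
        _ = y * (z * (y : G)⁻¹) := by rw [hx]; group
        _ = z := by rw [hy]; group
  · intro x hx
    rcases h.cent x x.2 (fun y hy => congrArg Subtype.val (hx ⟨y, hy⟩)) with h1 | h1
    · exact Or.inl (Subtype.ext h1)
    · exact Or.inr (Subtype.ext h1)

/-- The closing: dimension bound + chain of conjugates. -/
theorem noPEx_of_dim {H : Type u} [Group H] [Finite H] [IsSimpleGroup H] (hna : ∃ a b : H, a * b ≠ b * a) {p : ℕ}
    [hp : Fact p.Prime] (hd : p ∣ Nat.card H) (P : Sylow p H) (N : ℕ) (hN : (P : Subgroup H).index ≤ N) (D : ℕ)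
    (hdim : ∀ (V : Type u) [AddCommGroup V] [Finite V] [DistribMulAction H V], (∀ v : V, p • v = 0) →
      (∀ h : H, (∀ v : V, h • v = v) → h = 1) → p ^ D ≤ Nat.card V)
    (hnum : ∀ k, (p + 1) ^ k ≤ N → N ^ (k + 1) < p ^ D) : NoPEx p H := by
  intro V _ _ _ hV hnt hf hirr horb
  have hN' : ∀ M : Subgroup H, M.Normal → (P : Subgroup H) ≤ M → M = ⊤ := by
    intro M hM hPM
    rcases hM.eq_bot_or_eq_top with h | h
    · exfalso
      have h1 : (P : Subgroup H) = ⊥ := by
        rw [eq_bot_iff, ← h]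
        exact hPM
      have h2 := P.card_eq_multiplicity
      rw [h1, Subgroup.card_bot] at h2
      have h3 : (Nat.card H).factorization p ≠ 0 :=
        (hp.out.factorization_pos_of_dvd Nat.card_pos.ne' hd).ne'
      exact absurd h2 (Nat.one_lt_pow h3 hp.out.one_lt).ne
    · exact h
  have h0 : ∀ v : V, (∀ h : H, h • v = v) → v = 0 := by
    let W : AddSubgroup V :=
      { carrier := {v | ∀ h : H, h • v = v}
        zero_mem' := fun h => smul_zero h
        add_mem' := fun {a b} ha hb h => by rw [smul_add, ha h, hb h]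
        neg_mem' := fun {a} ha h => by rw [smul_neg, ha h] }
    have hW : ∀ v, v ∈ W ↔ ∀ h : H, h • v = v := fun v => Iff.rfl
    rcases hirr W (fun h w hw => by rw [(hW w).1 hw h]; exact hw) with h1 | h1
    · intro v hv
      have h2 : v ∈ W := hv
      rw [h1] at h2
      exact h2
    · exfalso
      obtain ⟨a, b, hab⟩ := hna
      apply hab
      have h2 : ∀ g : H, g = 1 := fun g => hf g fun v => by
        have h3 : v ∈ W := by rw [h1]; exact AddSubgroup.mem_top v
        exact h3 g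
      rw [h2 a, h2 b]
  obtain ⟨k, hk1, hk2⟩ := card_le_index_pow P hN' h0
  have h1 : (fxV V (P : Subgroup H)).index ≤ N :=
    (index_le_card_sylow P horb).trans ((Nat.le_of_dvd (Nat.pos_of_ne_zero Subgroup.index_ne_zero_of_finite)
      (P.card_dvd_index)).trans hN)
  have h2 := hnum k (hk1.trans hN)
  have h3 := hdim V hV hf
  have h4 : Nat.card V ≤ N ^ (k + 1) := hk2.trans (Nat.pow_le_pow_left h1 _)
  omega

end Cfsg.Agent.H149.RI
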