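import Cfsg.Agent.H665.RIM.Defs

/-!
# S4816: reduction of `EK p S` to `NoPEx p S` for multipliers of prime order (helper149)
-/

set_option autoImplicit false

namespace Cfsg.Agent.H149.RI

open Cfsg Cfsg.Agent.H229.RIM Cfsg.Agent.H665.RIM
open scoped commutatorElement

universe u

/-- `K / N` central, `N` central, `H` perfect: `K` is central. -/
theorem central_of_perf {H : Type*} [Group H] {K N : Subgroup H} (hperf : commutator H = ⊤)
    (hN : N ≤ Subgroup.center H) (hc : ∀ k ∈ K, ∀ h : H, ⁅k, h⁆ ∈ N) : K ≤ Subgroup.center H := by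
  intro k hk
  let f : H →* Subgroup.center H :=
    { toFun := fun h => ⟨⁅k, h⁆, hN (hc k hk h)⟩
      map_one' := by
        apply Subtype.ext
        show ⁅k, (1 : H)⁆ = 1
        rw [commutatorElement_one_right]
      map_mul' := fun g h => by
        apply Subtype.ext
        show ⁅k, g * h⁆ = ⁅k, g⁆ * ⁅k, h⁆
        have h1 : ⁅k, g * h⁆ = ⁅k, g⁆ * (g * ⁅k, h⁆ * g⁻¹) := by
          simp only [commutatorElement_def]
          group
        have h2 : g * ⁅k, h⁆ = ⁅k, h⁆ * g := Subgroup.mem_center_iff.1 (hN (hc k hk h)) g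
        rw [h1, h2, mul_inv_cancel_right] }
  have hf : f.ker = ⊤ := by
    rw [eq_top_iff, ← hperf, commutator_eq_closure, Subgroup.closure_le]
    rintro _ ⟨a, b, rfl⟩
    show f ⁅a, b⁆ = 1
    rw [map_commutatorElement, commutatorElement_eq_one_iff_mul_comm]
    exact Subtype.ext (Subgroup.mem_center_iff.1 (f b).2 (f a))
  rw [Subgroup.mem_center_iff]
  intro g
  have h1 : f g = 1 := by
    rw [← MonoidHom.mem_ker, hf]
    exact Subgroup.mem_top g
  have h2 : ⁅k, g⁆ = 1 := congrArg Subtype.val h1
  exact (commutatorElement_eq_one_iff_mul_comm.1 h2).symm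

/-- **`EK p S` from `NoPEx p S`**, if the perfect central extensions of `S` have kernels of order 1 or a prime. -/
theorem ek_of_noPEx {p : ℕ} {S : Type u} [Group S]
    (hm : ∀ (E : Type u) [Group E] [Finite E] (π : E →* S), Function.Surjective π → π.ker ≤ Subgroup.center E →
      commutator E = ⊤ → Nat.card π.ker = 1 ∨ (Nat.card π.ker).Prime) (h : NoPEx p S) : EK p S := by
  intro H V _ _ _ _ _ K N φ π core hπ hk hc
  have hKc := central_of_perf core.perf core.cen hc
  have hNK : N = K := by
    rcases hm H π hπ (hk ▸ hKc) core.perf with h1 | h1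
    · exfalso
      apply core.Nne
      rw [hk, Subgroup.card_eq_one] at h1
      rw [eq_bot_iff, ← h1]
      exact core.NK
    · have : Fact (Nat.card π.ker).Prime := ⟨h1⟩
      rw [hk] at this
      have h2 := (N.subgroupOf K).eq_bot_or_eq_top_of_prime_card
      rcases h2 with h2 | h2
      · exfalso
        apply core.Nne
        rw [Subgroup.subgroupOf_eq_bot, disjoint_iff] at h2
        rw [← h2]
        exact (inf_eq_left.2 core.NK).symm
      · exact le_antisymm core.NK (Subgroup.subgroupOf_eq_top.1 h2)
  let g : S → H := Function.surjInv hπ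
  have hg : ∀ s, π (g s) = s := Function.surjInv_eq hπ
  have heq : ∀ (x y : H) (v : V), π x = π y → x • v = y • v := by
    intro x y v e
    have h1 : y⁻¹ * x ∈ N := by
      rw [hNK, ← hk, MonoidHom.mem_ker, map_mul, map_inv, e, inv_mul_cancel]
    have h2 := (core.ker (y⁻¹ * x)).2 h1 v
    rw [mul_smul, inv_smul_eq_iff] at h2
    exact h2
  let _ : DistribMulAction S V :=
    { smul := fun s v => g s • v
      one_smul := fun v => (heq (g 1) 1 v (by rw [hg, map_one])).trans (one_smul H v)
      mul_smul := fun s t v => (heq (g (s * t)) (g s * g t) v (by rw [hg, map_mul, hg, hg])).trans (mul_smul _ _ v)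
      smul_zero := fun s => smul_zero (g s)
      smul_add := fun s => smul_add (g s) }
  have hsm : ∀ (x : H) (v : V), π x • v = x • v := fun x v => heq (g (π x)) x v (hg _)
  refine h V core.exp core.nt ?_ ?_ ?_
  · intro s hs
    obtain ⟨x, rfl⟩ := hπ s
    have h1 : x ∈ N := (core.ker x).1 fun v => by rw [← hsm]; exact hs v
    rw [hNK, ← hk, MonoidHom.mem_ker] at h1
    exact h1
  · intro W hW
    exact core.irr W fun x w hw => by rw [← hsm]; exact hW _ w hw
  · intro v
    have h1 : (MulAction.stabilizer S v).comap π = MulAction.stabilizer H v := by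
      ext x
      rw [Subgroup.mem_comap, MulAction.mem_stabilizer_iff, MulAction.mem_stabilizer_iff, hsm]
    have h2 := core.P1 v
    rw [← h1, Subgroup.index_comap_of_surjective _ hπ] at h2
    exact h2

end Cfsg.Agent.H149.RI
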